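import Cfsg.Agent.INV.HS8.B2x

/-!
Case II: the Sylow subgroup of `C(t)` is `S = S0 ⟨c⟩` of order 64.
-/

set_option autoImplicit false
set_option linter.unusedSectionVars false
set_option linter.unusedVariables false

open Subgroup CL.TwoS CL.MSS

namespace CL.HS8

variable {G : Type*} [Group G] {d : Dat G}

variable [Finite G]

/-- Some Sylow subgroup of `C(t)` containing `S0` has a swapping element `c` (Sylow in `C(t) ∩ N(S0)`; `stz`). `c b c⁻¹ ∈ {a, t a}` (`c ρ c⁻¹` acts on `F` with fixed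
points `⟨t, a⟩`, `st`). If `c b c⁻¹ = t a`: for K8, `c` maps `t b ~ t` to `a`; the element `y'` (or `y`) and `c y' c⁻¹` lie in `N(S0) ∩ N(E)` and `AE.le` fails; for K4, `y⁻¹ c y c⁻¹`
fixes `t` and interchanges `a`, `b`, against `stabS`. Multiply `c` by `v`, `w` to get `v ↔ w`; `c² ∈ ⟨t, z⟩`; `(c a)² = c² z`. -/
theorem Hy.case2 (h : Hy d) (n : ¬ C1 d) (k : K4 d ∨ ∃ α β, K8 d α β) : ∃ c p, C2 d c p :=
  h.case2x n k

/-- `N(S0)` fixes `t` (`AE.le` with `A1`, multiply by a swapping element of `C(t)`), so the Sylow subgroup `S` of `C(t)` (order 64) is Sylow in `G` (`S0` is generated by the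
two elementary subgroups of order 16 of `S`). With `c v c⁻¹ = w`, `c w c⁻¹ = v`, the element `c v` has order 8 (`c² ∈ Z0`), which gives `R 16 S`. -/
theorem kII1 (h : Hy d) (n : ¬ C1 d) (k : K1 d) : R4 G :=
  kII1x h n k

/-- A swapping element conjugates the automiser of `E` to that of `F`; compare orders, or fixed points on `E0`. -/
theorem kII2 (h : Hy d) (n : ¬ C1 d) : ¬ K2 d ∧ ¬ K8 d true false ∧ ¬ K8 d false true :=
  kII2x h n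

namespace B2

variable {c : G} {p : Bool}

/-- The model of `S`. -/
def φ6 (d : Dat G) (c : G) (x : M5 × Bool) : G := d.φ5 x.1 * bp c x.2

def mul6 (p : Bool) (x y : M5 × Bool) : M5 × Bool :=
  (x.1 * cond x.2 (sw5 y.1) y.1 * bp (bp (.of 1) p) (x.2 && y.2), xor x.2 y.2)

def F4 (p : Bool) (x y : M5 × Bool) : Prop := (x ≠ y ∧ y ≠ (1, false) ∧ y ≠ (.of 1, false) ∧
  mul6 p x y ≠ (.of 1, false) ∧ ∀ s ∈ [((1 : M5), true), (.of 2, false), (.of 16, false), (.of 4, false)],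
    (mul6 p s x = mul6 p x s ∨ mul6 p s x = mul6 p y s) ∧ mul6 p s (mul6 p x y) = mul6 p (mul6 p x y) s) →
  mul6 p x y = (.of 12, false) ∧ (x = (.of 4, false) ∨ x = (.of 8, false) ∨ x = (.of 5, false) ∨ x = (.of 9, false))

instance (p : Bool) (x y : M5 × Bool) : Decidable (F4 p x y) := by unfold F4; infer_instance

theorem mem {R : Subgroup G} (h1 : ∀ m, d.φ5 m ∈ R) (h2 : c ∈ R) {x : G} (hx : InS d c x) : x ∈ R := by
  obtain ⟨m, _ | _, rfl⟩ := hx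
  exacts [mul_mem (h1 m) (one_mem _), mul_mem (h1 m) h2]

theorem pow4 (h : Hy d) {g : G} (a : NT d g) (b : Into d.φ4 d.φ4 g) (n : M5) : Commute (g ^ 4) (d.φ5 n) := by
  have r := h.toRl
  obtain ⟨c, hc, i, hA⟩ := Cls.code h a b
  have k := hA (.of c.1)
  rw [(by decide +kernel : ∀ c ∈ Cls.CL, app5 (.of c.1) (.of c.2.1) (.of c.2.2.1) (.of c.2.2.2) (.of c.1) = .of 1) c hc,
    d.φt] at k
  obtain ⟨m, hm⟩ := h.stabS (a.mul a) (b.mul b) (comm_of_cj (by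
    rw [← Cls.ct h hc hA] at k
    calc _ = (d.φ5 i)⁻¹ * (d.φ5 i * g * (g * d.t * g⁻¹) * (d.φ5 i * g)⁻¹) * (d.φ5 i)⁻¹⁻¹ := by group
      _ = _ := by rw [k, cj_of_comm (r.comm_t i).inv_left]))
  refine comm_of_cj ?_
  have H2 : ∀ m n : M5, m * (m * n * m⁻¹) = n * m := by decide +kernel
  conv_rhs => rw [← r.mod5.cj (H2 m n), ← hm, r.mod5.mul, r.mod5.mul, r.φ5_inv, ← hm]
  simp only [pow_succ, pow_zero, one_mul, mul_inv_rev, mul_assoc]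

variable (r : Rl d) (k : C2 d c p)
include r k

theorem cc : c * c = d.φ5 (bp (.of 1) p) := by rw [k.cc, map_bp r.mod5.one, d.φt]

theorem ne (m n : M5) : d.φ5 m ≠ d.φ5 n * c := fun e =>
  r.not_EF (by rw [show c = d.φ5 (n⁻¹ * m) by rw [r.mod5.mul, e, r.φ5_inv]; group]; exact r.into_φ _) (k.sw r).2

theorem cmul (m : M5) : InS d c (c * d.φ5 m) := ⟨sw5 m, true, by rw [← k.act r, bp_true]; group⟩

theorem inv : Into d.swap.φ4 d.φ4 c⁻¹ := inv_of_inj r.mod4.inj r.swap.mod4.inj (k.sw r).2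

theorem mul (x y : M5 × Bool) : φ6 d c (mul6 p x y) = φ6 d c x * φ6 d c y := by
  obtain ⟨m, _ | _⟩ := x <;> obtain ⟨n, _ | _⟩ := y <;>
    simp only [φ6, mul6, cond_true, cond_false, Bool.and_true, Bool.and_false, Bool.xor_true, Bool.xor_false,
      Bool.not_true, Bool.not_false, bp_true, bp_false, mul_one, r.mod5.mul, ← k.act r, ← cc r k] <;> group

theorem inj : Function.Injective (φ6 d c) := by
  rintro ⟨m, _ | _⟩ ⟨n, _ | _⟩ e <;> simp only [φ6, bp_true, bp_false, mul_one, mul_left_inj] at e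
  exacts [by rw [r.inj e], (ne r k _ _ e).elim, (ne r k _ _ e.symm).elim, by rw [r.inj e]]

end B2

namespace Hy

variable (h : Hy d) {c : G} {p : Bool} (k : C2 d c p)
include h k

theorem exists_S : ∃ S : Subgroup G, (∀ x, x ∈ S ↔ InS d c x) ∧ SylIn 2 S (centralizer {d.t}) ∧ Nat.card S = 64 := by
  have r := h.toRl
  have hn : ∀ x ∈ r.S0, c * x * c⁻¹ ∈ r.S0 := fun x hx => by
    obtain ⟨m, rfl⟩ := r.mem_S0.1 hx
    exact r.mem_S0.2 ⟨_, (k.act r m).symm⟩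
  have hs : c * c ∈ r.S0 := r.mem_S0.2 ⟨_, (B2.cc r k).symm⟩
  have cd : Nat.card (ext2 r.S0 c hn hs) = 2 ^ 6 := by
    rw [card_ext2 fun a => let ⟨m, e⟩ := r.mem_S0.1 a; B2.ne r k m 1 (by rw [e, r.mod5.one, one_mul]), r.card_S0]
    rfl
  have le : ext2 r.S0 c hn hs ≤ centralizer {d.t} := fun x hx => hx.elim (fun a => r.S0_le a) fun a =>
    (mul_mem_cancel_right (inv_mem (mem_centralizer_singleton_iff.2 k.ct))).1 (r.S0_le a)
  refine ⟨ext2 r.S0 c hn hs, fun x => ⟨?_, ?_⟩, ⟨le, isPGroup_of_card cd, fun Q hQ h1 h2 =>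
    (eq_of_le_of_card_ge h1 (cd ▸ h.card64 (IsConj.refl _) hQ fun x hx =>
      mem_centralizer_singleton_iff.1 (h2 hx))).symm⟩, cd⟩
  · rintro (a | a) <;> obtain ⟨m, e⟩ := r.mem_S0.1 a
    exacts [⟨m, false, by rw [e, bp_false, mul_one]⟩, ⟨m, true, by rw [e, bp_true, inv_mul_cancel_right]⟩]
  · rintro ⟨m, _ | _, rfl⟩
    exacts [.inl (r.mem_S0.2 ⟨m, (mul_one _).symm⟩), .inr (r.mem_S0.2 ⟨m, (mul_inv_cancel_right _ _).symm⟩)]

theorem cT2 {R : Subgroup G} (hR : Ov d R) (hc : c ∈ R) {x : G} (hx : x ∈ R) (ht : Commute x d.t) : InS d c x := by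
  obtain ⟨S, mS, hS, -⟩ := h.exists_S k
  exact (mS x).1 ((hS.max (R ⊓ centralizer {d.t}) hR.pg.to_inf_left
    (le_inf (fun y hy => B2.mem hR.s0 hc ((mS y).1 hy)) hS.le) inf_le_right).le
      ⟨hx, mem_centralizer_singleton_iff.2 ht⟩)

theorem tr2 {u : G} (hu : IsConj d.t u) {R : Subgroup G} (hR : IsPGroup 2 R) :
    ∃ γ, γ * u * γ⁻¹ = d.t ∧ ∀ x ∈ R, Commute x u → InS d c (γ * x * γ⁻¹) := by
  have := Fact.mk Nat.prime_two
  obtain ⟨S, mS, hS, -⟩ := h.exists_S k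
  obtain ⟨g, hg⟩ := isConj_iff.1 hu.symm
  obtain ⟨x, hx, hle⟩ := hS.exists_conj_le (R := g •ᶜ (R ⊓ centralizer {u}))
    ((hR.to_inf_left).map _) (by
      rw [← hg, ← cj_centralizer_singleton]; exact cj_mono _ inf_le_right)
  refine ⟨x * g, ?_, fun y hy hyu => ?_⟩
  · rw [← cj_of_comm (mem_centralizer_singleton_iff.1 hx), ← hg]; group
  · rw [← cj_mul] at hle
    exact (mS _).1 (hle (conj_mem_cj ⟨hy, mem_centralizer_singleton_iff.2 hyu⟩))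

/-- An element of `S` lying in an elementary abelian subgroup of order 16 of `S` lies in `S0`. -/
theorem e16 {B : Subgroup G} (hB : ∀ x ∈ B, InS d c x) (h2 : ∀ x ∈ B, x * x = 1) (h16 : 16 ≤ Nat.card B) :
    (∀ x ∈ B, ∃ e, x = d.φ4 e) ∨ ∀ x ∈ B, ∃ e, x = d.swap.φ4 e := by
  have r := h.toRl
  have cm : ∀ x ∈ B, ∀ y ∈ B, x * y = y * x := fun x hx y hy => by
    rw [← inv_eq_of_mul_eq_one_left (h2 _ (mul_mem hx hy)), mul_inv_rev, inv_eq_of_mul_eq_one_left (h2 _ hx),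
      inv_eq_of_mul_eq_one_left (h2 _ hy)]
  by_cases e : ∃ m, d.φ5 m * c ∈ B
  · obtain ⟨m0, h0⟩ := e
    have k1 : ∀ m, d.φ5 m ∈ B → d.φ5 m ∈ r.mod5.sub (fun m => m.cen && m.e.a == m.e.b) rfl (by decide +kernel) :=
      fun m hm => ⟨m, (by decide +kernel : ∀ m0 m : M5, m * m = 1 → m0 * sw5 m = m * m0 →
        (m.cen && m.e.a == m.e.b) = true) m0 m (r.mod5.sq.1 (h2 _ hm)) (r.inj (by
          rw [r.mod5.mul, r.mod5.mul, ← k.act r, ← mul_assoc, ← mul_assoc, cm _ h0 _ hm]; group)), rfl⟩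
    have := le_two (P := B) (fun x => ∃ m, x = d.φ5 m * c) (fun x hx => by
      obtain ⟨m, _ | _, e⟩ := hB x hx
      · rw [bp_false, mul_one] at e
        exact .inl (e ▸ k1 m (e ▸ hx))
      · exact .inr ⟨m, e⟩) (by
      rintro _ hx _ hy ⟨m, rfl⟩ ⟨n, rfl⟩
      have e := B2.mul r k (m, true) (n, true)
      change d.φ5 _ * 1 = d.φ5 m * c * (d.φ5 n * c) at e
      rw [mul_one] at e
      exact e ▸ k1 _ (e ▸ mul_mem hx hy))
    exact absurd (h16.trans (this.trans (Nat.mul_le_mul_left 2 (r.mod5.card_sub M5.nodup_all M5.mem_all).le)))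
      (by decide +kernel)
  · have k1 : ∀ x ∈ B, ∃ m, x = d.φ5 m := fun x hx => by
      obtain ⟨m, _ | _, e1⟩ := hB x hx
      exacts [⟨m, e1.trans (mul_one _)⟩, (e ⟨m, e1 ▸ hx⟩).elim]
    by_contra n
    push Not at n
    obtain ⟨⟨x, hx, n1⟩, y, hy, n2⟩ := n
    obtain ⟨m, rfl⟩ := k1 x hx
    obtain ⟨n, rfl⟩ := k1 y hy
    rcases (by decide +kernel : ∀ m n : M5, m * m = 1 → n * n = 1 → m * n = n * m → m.w = false ∨ n.e.v = false) m n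
      (r.mod5.sq.1 (h2 _ hx)) (r.mod5.sq.1 (h2 _ hy)) (r.mod5.comm.1 (cm _ hx _ hy)) with a | a
    exacts [n1 _ (Rl.φ5_E m a), n2 _ (r.φ5_F n a)]

theorem dich2 {γ : G} (hγ : ∀ e, InS d c (γ * d.φ4 e * γ⁻¹)) : Into d.φ4 d.φ4 γ ∨ Into d.φ4 d.swap.φ4 γ := by
  have r := h.toRl
  refine (h.e16 k (B := γ •ᶜ r.E) (fun x hx => ?_) (fun x hx => ?_) (by rw [card_cj, r.card_E]; rfl)).imp
    (fun a e => a _ (conj_mem_cj (r.mem_E.2 ⟨e, rfl⟩))) fun a e => a _ (conj_mem_cj (r.mem_E.2 ⟨e, rfl⟩))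
  all_goals
    obtain ⟨y, hy, rfl⟩ := mem_cj'.1 hx
    obtain ⟨e, rfl⟩ := r.mem_E.1 hy
  · exact hγ e
  · rw [← Jn.cjm, r.mod4.sq.2 (V4.mul_self e), mul_one, mul_inv_cancel]

/-- `z` is a commutator in `S`, `t` is not. -/
theorem z_not2 : ¬ IsConj d.t (d.a * d.b) := by
  intro hu
  have r := h.toRl
  obtain ⟨γ, e, q⟩ := h.tr2 k hu r.ov_S0.pg
  have cz : ∀ m, InS d c (γ * d.φ5 m * γ⁻¹) := fun m => q _ (r.ov_S0.s0 m) (Rl.φz (d := d) ▸ r.mod5.comm.2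
    ((by decide +kernel : ∀ m : M5, m * .of 12 = .of 12 * m) m))
  obtain ⟨m, i, e1⟩ := cz (.of 2)
  obtain ⟨n, j, e2⟩ := cz (.of 16)
  refine (by decide +kernel : ∀ p x y, B2.mul6 p x y ≠ B2.mul6 p (.of 1, false) (B2.mul6 p y x)) p (m, i) (n, j)
    (B2.inj r k ?_)
  rw [B2.mul r k, B2.mul r k, B2.mul r k, B2.φ6, B2.φ6, B2.φ6, ← e1, ← e2, d.φt, bp_false, mul_one, ← e, ← Jn.cjm,
    ← Jn.cjm, ← Jn.cjm, ← Rl.φz, ← r.mod5.mul, ← r.mod5.mul, ← r.mod5.mul]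
  rfl

theorem exists_nt2 {m : M5} (hm : m.cen = true) (hu : IsConj d.t (d.φ5 m)) :
    ∃ g, NT d g ∧ Into d.φ4 d.φ4 g ∧ g * d.t * g⁻¹ = d.φ5 m := by
  have r := h.toRl
  obtain ⟨γ, e, q⟩ := h.tr2 k hu r.ov_S0.pg
  have fin : ∀ γ, γ * d.φ5 m * γ⁻¹ = d.t → Into d.φ4 d.φ4 γ →
      ∃ g, NT d g ∧ Into d.φ4 d.φ4 g ∧ g * d.t * g⁻¹ = d.φ5 m := fun γ e a =>
    h.toN0 (r.into_inv a) hm (by rw [← e]; group)
  rcases h.dich2 k fun x => d.φ5_e x ▸ q _ (r.ov_S0.s0 _) (r.mod5.comm.2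
    ((by decide +kernel : ∀ m n : M5, m.cen = true → n * m = m * n) m _ hm)) with a | a
  · exact fin γ e a
  · exact fin (c * γ) (by rw [← cj_of_comm k.ct, ← e]; group) ((r.sw_FE (k.sw r)).mul a)

/-- `C(t)` permutes the two classes of four-groups of `L` (`V1`, `V2` are not conjugate in `L`, as `D` is Sylow in `L`); or: an involution of `S0` is conjugate in `C(t)` to a central
element of `S0` (`cc_rp`), while `|C_S(φ5 m * c)| ≤ 16`, extremal conjugation and `e16`. -/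
theorem swap_not {g : G} (hg : Commute g d.t) (m m' : M5) (h2 : d.φ5 m' * d.φ5 m' = 1) :
    g * (d.φ5 m * c) * g⁻¹ ≠ d.φ5 m' := by
  intro e
  have := Fact.mk Nat.prime_two
  have r := h.toRl
  obtain ⟨S, L, hS, s0, hL, hD, hx⟩ := h.ex
  obtain ⟨S', mS, hS', -⟩ := h.exists_S k
  have sL := hS.inf_normal (N := L) (le_normalizer_of_cj_le fun y hy =>
    cj_le_iff_forall.2 (hL y (mem_centralizer_singleton_iff.1 hy)))
  have ct : ∀ m, d.φ5 m ∈ centralizer ({d.t} : Set G) := fun m => mem_centralizer_singleton_iff.2 (r.comm_t m)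
  have D0 : S ⊓ L ≤ r.S0 := fun y hy => by
    obtain ⟨n, e⟩ := (hx y hy.1).resolve_right fun a => a.1 hy.2
    exact r.mem_S0.2 ⟨n, e.symm⟩
  let H := ext2 (centralizer {d.t} ⊓ L) (d.φ5 m') (fun y hy => mem_inf.2 ⟨mul_mem (mul_mem (ct _) hy.1) (inv_mem (ct _)),
    hL _ (r.comm_t _) _ hy.2⟩) (h2 ▸ one_mem _)
  have sH : SylIn 2 (r.S0 ⊓ H) H := ⟨inf_le_right, r.ov_S0.pg.to_inf_left, fun Q hQ h3 h4 =>
    le_antisymm (fun y hy => ⟨by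
    have k1 : ∀ y ∈ Q, y ∈ centralizer {d.t} ⊓ L → y ∈ r.S0 := fun y hy a => D0 ((sL.max (Q ⊓ (centralizer {d.t} ⊓ L))
      hQ.to_inf_left (fun u hu => ⟨h3 ⟨D0 hu, .inl (sL.le hu)⟩, sL.le hu⟩) inf_le_right).le ⟨hy, a⟩)
    have k2 := r.ov_S0.s0 m'
    rcases h4 hy with a | a
    · exact k1 y hy a
    · exact (mul_mem_cancel_right (inv_mem k2)).1 (k1 _ (mul_mem hy (inv_mem (h3 ⟨k2, self_mem_ext2⟩))) a), h4 hy⟩) h3⟩
  obtain ⟨x, -, le⟩ := sH.exists_conj_le (R := g •ᶜ S' ⊓ H) (isPGroup_cj g hS'.pgroup).to_inf_left inf_le_right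
  have vL := hL g hg _ ((hD (.of 2)).2 rfl)
  have vC : g * d.φ5 (.of 2) * g⁻¹ ∈ centralizer {d.t} := mem_centralizer_singleton_iff.2
    ((hg.mul_left (r.comm_t _)).mul_left hg.inv_left)
  obtain ⟨n, e1⟩ := r.mem_S0.1 (le (conj_mem_cj (x := g * (d.φ5 (.of 2) * (d.φ5 m * c)) * g⁻¹) ⟨conj_mem_cj
    ((mS _).2 ⟨.of 2 * m, true, by rw [r.mod5.mul, bp_true, mul_assoc]⟩),
      .inr (by rw [Jn.cjm, e, mul_inv_cancel_right]; exact ⟨vC, vL⟩)⟩)).1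
  have e2 : d.φ5 m * c * (d.φ5 m * c) = 1 := by
    rw [← e, ← Jn.cjm] at h2; simpa using h2
  have e3 := r.mod5.sq.2 ((by decide +kernel : ∀ n : M5, n * n * (n * n) = 1) n)
  rw [r.mod5.mul, e1, ← Jn.cjm, ← Jn.cjm, ← Jn.cjm, ← Jn.cjm] at e3
  have e4 : ∀ y : G, y * y = 1 → d.φ5 (.of 2) * y * (d.φ5 (.of 2) * y) = d.φ5 (.of 2) * (y * d.φ5 (.of 2) * y⁻¹) :=
    fun y e => by rw [inv_eq_of_mul_eq_one_left e]; group
  rw [e4 _ e2, show d.φ5 m * c * d.φ5 (.of 2) * (d.φ5 m * c)⁻¹ = d.φ5 m * (c * d.φ5 (.of 2) * c⁻¹) * (d.φ5 m)⁻¹ by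
    group, k.act r, ← r.φ5_inv, ← r.mod5.mul, ← r.mod5.mul, ← r.mod5.mul, ← r.mod5.mul] at e3
  exact (by decide +kernel : ∀ m : M5, .of 2 * (m * sw5 (.of 2) * m⁻¹) * (.of 2 * (m * sw5 (.of 2) * m⁻¹)) ≠ 1) m
    (r.inj (by rw [r.mod5.one]; simpa using e3))

/-- An element of `C(t)` normalising `S0` acts on `S0` as an element of `S` (`stabS`, `dich`). -/
theorem stabS2 {g : G} (hg : NT d g) (ht : Commute g d.t) :
    ∃ s, InS d c s ∧ ∀ n, g * d.φ5 n * g⁻¹ = s * d.φ5 n * s⁻¹ := by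
  have r := h.toRl
  rcases r.dich hg with a | a
  · obtain ⟨m, e⟩ := h.stabS hg a.1 ht
    exact ⟨_, ⟨m, false, (mul_one _).symm⟩, e⟩
  · obtain ⟨m, e⟩ := h.stabS ((r.nt_inv (k.sw r).1).mul hg) ((B2.inv r k).mul a.1) (k.ct.inv_left.mul_left ht)
    refine ⟨c * d.φ5 m, B2.cmul r k m, fun n => ?_⟩
    calc _ = c * (c⁻¹ * g * d.φ5 n * (c⁻¹ * g)⁻¹) * c⁻¹ := by group
      _ = _ := by rw [e]; group

/-- Here `c ∉ R` is allowed: `g` normalises `S0 = C_R(t) ∩ N(E)`; if it normalises `E` it acts on `R` as an element of `S0`. -/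
theorem stab0 {R : Subgroup G} (hR : Ov d R) {g : G} (hg : ∀ x ∈ R, g * x * g⁻¹ ∈ R)
    (ht : Commute g d.t) (hE : Into d.φ4 d.φ4 g) : ∃ m, ∀ x ∈ R, g * x * g⁻¹ = d.φ5 m * x * (d.φ5 m)⁻¹ := by
  have r := h.toRl
  have nt : NT d g := fun m => h.ovE hR (hg _ (hR.s0 m)) ((ht.mul_left (r.comm_t m)).mul_left ht.inv_left)
    ((hE.mul (r.into_φ m)).mul (r.into_inv hE))
  obtain ⟨m, hm⟩ := h.stabS nt hE ht
  have e : ∀ x, (d.φ5 m)⁻¹ * g * x * ((d.φ5 m)⁻¹ * g)⁻¹ = (d.φ5 m)⁻¹ * (g * x * g⁻¹) * d.φ5 m :=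
    fun x => by group
  obtain ⟨f, hf⟩ := h.stabE hR.pg (fun e => d.φ5_e e ▸ hR.s0 _) (g := (d.φ5 m)⁻¹ * g)
    (fun x hx => e x ▸ mul_mem (mul_mem (inv_mem (hR.s0 m)) (hg x hx)) (hR.s0 m)) fun f => by
      rw [e, L4.one_app, ← d.φ5_e, hm]; group
  refine ⟨m * ⟨f, false⟩, fun x hx => ?_⟩
  rw [r.mod5.mul, d.φ5_e]
  calc _ = d.φ5 m * ((d.φ5 m)⁻¹ * g * x * ((d.φ5 m)⁻¹ * g)⁻¹) * (d.φ5 m)⁻¹ := by group
    _ = _ := by rw [hf x hx]; group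

theorem stab2 {R : Subgroup G} (hR : Ov d R) (hc : c ∈ R) {g : G} (hg : ∀ x ∈ R, g * x * g⁻¹ ∈ R)
    (ht : Commute g d.t) : ∃ s, InS d c s ∧ ∀ x ∈ R, g * x * g⁻¹ = s * x * s⁻¹ := by
  have r := h.toRl
  rcases h.dich2 k (γ := g) fun e => h.cT2 k hR hc (hg _ (d.φ5_e e ▸ hR.s0 _))
    ((ht.mul_left (d.φ5_e e ▸ r.comm_t _)).mul_left ht.inv_left) with a | a
  · obtain ⟨m, e⟩ := h.stab0 k hR hg ht a
    exact ⟨_, ⟨m, false, (mul_one _).symm⟩, e⟩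
  · obtain ⟨m, e⟩ := h.stab0 k hR (g := c⁻¹ * g) (fun x hx => by
      have := mul_mem (mul_mem (inv_mem hc) (hg x hx)) hc
      rwa [show c⁻¹ * (g * x * g⁻¹) * c = c⁻¹ * g * x * (c⁻¹ * g)⁻¹ by group] at this)
      (k.ct.inv_left.mul_left ht) ((B2.inv r k).mul a)
    refine ⟨c * d.φ5 m, B2.cmul r k m, fun x hx => ?_⟩
    calc _ = c * (c⁻¹ * g * x * (c⁻¹ * g)⁻¹) * c⁻¹ := by group
      _ = _ := by rw [e x hx]; group

theorem cover2 {P : Subgroup G} (hP : Ov d P) (hc : c ∈ P) {g σ : G} (hg : g ∈ P) (hσ : σ ∈ P)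
    (e : g * d.t * g⁻¹ = σ * d.t * σ⁻¹) : ∃ s, InS d c s ∧ g = σ * s := by
  refine ⟨σ⁻¹ * g, h.cT2 k hP hc (mul_mem (inv_mem hσ) hg) (comm_of_cj ?_), by group⟩
  calc _ = σ⁻¹ * (g * d.t * g⁻¹) * σ := by group
    _ = _ := by rw [e]; group

theorem syl2 {T : Subgroup G} (hT : Ov d T) (hc : c ∈ T) (e : ∀ g, (∀ x ∈ T, g * x * g⁻¹ ∈ T) →
    ∃ s ∈ T, g * d.t * g⁻¹ = s * d.t * s⁻¹) : SylIn 2 T ⊤ := by
  refine syl_of hT.pg le_top fun Q hQ le _ g hg hn => ?_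
  obtain ⟨s, hs, e1⟩ := e g hn
  obtain ⟨x, hx, rfl⟩ := h.cover2 k ⟨hQ, fun m => le (hT.s0 m)⟩ (le hc) hg (le hs) e1
  exact mul_mem hs (B2.mem hT.s0 hc hx)

/-- `tr_ext` with `R = S`. -/
theorem tr_t {A : Type*} [CommGroup A] {X T : Subgroup G} (hX : Gl d X) (hT : SylIn 2 T ⊤) (ψ : T →* A) :
    ∃ V : G →* A, (∀ x ∈ X, V x = 1) ∧
      (∀ u, (∀ g, Ext d c T g → ∀ hg : g * d.t * g⁻¹ ∈ T, ψ ⟨_, hg⟩ = u) → V d.t = u) ∧
      ∀ x, x * x = 1 → ∀ R : Subgroup G, IsPGroup 2 R → (∀ r ∈ R, Commute r x) → ∀ u : A,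
        (∀ g, ∀ hg : g * x * g⁻¹ ∈ T, (∀ r ∈ R, g * r * g⁻¹ ∈ T) → ψ ⟨_, hg⟩ = u) → V x = u := by
  obtain ⟨V, hV⟩ := tr_ext hT ψ
  obtain ⟨S, mS, hS, -⟩ := h.exists_S k
  refine ⟨V.comp (topEquiv (G := G)).symm.toMonoidHom, fun x hx => hX.hom V hx, fun u hu => hV d.t trivial h.c4.tt S hS.pgroup
    le_top (fun x hx => mem_centralizer_singleton_iff.1 (hS.le hx)) u fun g _ hg e => hu g ⟨fun m =>
      e _ ((mS _).2 ⟨m, false, (mul_one _).symm⟩), e _ ((mS _).2 ⟨1, true, ?_⟩)⟩ hg,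
    fun x x2 R hR hc u hu => hV x trivial x2 R hR le_top hc u fun g _ => hu g⟩
  rw [h.toRl.mod5.one, one_mul, bp_true]

theorem t_not2 {X T T0 : Subgroup G} (hX : Gl d X) (hT : SylIn 2 T ⊤) (hle : T0 ≤ T)
    (h0 : ∀ x ∈ T, x ∈ T0 ∨ x * d.t ∈ T0) (e : ∀ g, Ext d c T g → g * d.t * g⁻¹ ∉ T0) : d.t ∉ X := by
  classical
  intro tX
  let ψ : T →* ℤˣ := MonoidHom.mk' (fun x => if (x : G) ∈ T0 then 1 else -1) fun x y => by
    by_cases hx : (x : G) ∈ T0 <;> by_cases hy : (y : G) ∈ T0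
    · simp [hx, hy, mul_mem]
    · simp [hx, hy, T0.mul_mem_cancel_left hx]
    · simp [hx, hy, T0.mul_mem_cancel_right hy]
    · have := mul_mem ((h0 _ x.2).resolve_left hx)
        (inv_mem ((h0 _ (inv_mem y.2)).resolve_left (by simpa using hy)))
      rw [show (x : G) * d.t * ((y : G)⁻¹ * d.t)⁻¹ = x * y by group] at this
      simp [hx, hy, this]
  obtain ⟨V, h1, h2, -⟩ := h.tr_t k hX hT ψ
  exact absurd ((h1 _ tX).symm.trans (h2 (-1) fun g hg _ => if_neg (e g hg))) (by decide)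

/-- The normal four-groups of `S` not containing `t` are `⟨a, b⟩` and `⟨t a, t b⟩`. -/
theorem four {x y : G} (hx : InS d c x) (hy : InS d c y) (x2 : x * x = 1) (y2 : y * y = 1) (x1 : x ≠ 1) (y1 : y ≠ 1) (ne : x ≠ y)
    (n1 : x ≠ d.t) (n2 : y ≠ d.t) (n3 : x * y ≠ d.t)
    (hn : ∀ s, InS d c s → (s * x * s⁻¹ = x ∨ s * x * s⁻¹ = y) ∧ s * (x * y) * s⁻¹ = x * y) :
    x * y = d.a * d.b ∧ (x = d.a ∨ x = d.b ∨ x = d.t * d.a ∨ x = d.t * d.b) := by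
  have r := h.toRl
  obtain ⟨m, i, rfl⟩ := hx
  obtain ⟨n, j, rfl⟩ := hy
  change B2.φ6 d c (m, i) ≠ _ at x1 n1 ne
  change B2.φ6 d c (n, j) ≠ _ at y1 n2
  have e0 : ∀ m, B2.φ6 d c (m, false) = d.φ5 m := fun m => mul_one _
  have := (by decide +kernel : ∀ p (x : M5 × Bool), (B2.mul6 p x x = (1, false) ∧ x ≠ (1, false) ∧ x ≠ (.of 1, false)) →
    ∀ y, B2.F4 p x y) p (m, i) ⟨B2.inj r k (by rw [B2.mul r k, e0, r.mod5.one]; exact x2),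
      fun e => x1 (by rw [e, e0, r.mod5.one]), fun e => n1 (by rw [e, e0, d.φt])⟩ (n, j)
    ⟨fun e => ne (congrArg _ e), fun e => y1 (by rw [e, e0, r.mod5.one]), fun e => n2 (by rw [e, e0, d.φt]),
      fun e => n3 ((B2.mul r k (m, i) (n, j)).symm.trans (by rw [e, e0, d.φt])), fun s _ => by
        obtain ⟨a, b⟩ := hn _ ⟨s.1, s.2, rfl⟩
        exact ⟨a.imp (fun a => B2.inj r k (by rw [B2.mul r k, B2.mul r k]; exact mul_inv_eq_iff_eq_mul.1 a))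
          fun a => B2.inj r k (by rw [B2.mul r k, B2.mul r k]; exact mul_inv_eq_iff_eq_mul.1 a),
          B2.inj r k (by simp only [B2.mul r k]; exact mul_inv_eq_iff_eq_mul.1 b)⟩⟩
  obtain ⟨a, b⟩ := this
  refine ⟨(B2.mul r k (m, i) (n, j)).symm.trans (by rw [a, e0, Rl.φz]), ?_⟩
  change B2.φ6 d c (m, i) = _ ∨ B2.φ6 d c (m, i) = _ ∨ B2.φ6 d c (m, i) = _ ∨ B2.φ6 d c (m, i) = _
  rcases b with b | b | b | b <;> rw [b, e0]
  exacts [.inl d.φa, .inr (.inl d.φb), .inr (.inr (.inl Rl.φta)), .inr (.inr (.inr Rl.φtb))]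

/-- `N(S0)` acts on `S0` as a 2-group when the conjugates of `t` in `Z0` are as in K4, K8; `join`. `R` is a 2-subgroup of `N(S0)`. -/
theorem joinS {R : Subgroup G} (hR : Ov0 d R) (e : K4 d ∨ ∃ α β, K8 d α β) :
    ∃ c' Q, C2 d c' p ∧ Ov d Q ∧ R ≤ Q ∧ c' ∈ Q ∧ ∀ x ∈ Q, NT d x := by
  have r := h.toRl
  obtain ⟨S, mS, hS, -⟩ := h.exists_S k
  let N : Subgroup G := subOfMul {g | NT d g} (r.ov_S0.nt 1 (one_mem _)).1 fun _ a _ b => a.mul b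
  obtain ⟨o, -, ho, Q, hQ, l1, l2⟩ := join (R := r.S0) (N := N) (P1 := R) (P2 := S)
    (le_normalizer_of_cj_le fun x hx => cj_le_iff_forall.2 fun y hy => by
      obtain ⟨m, rfl⟩ := r.mem_S0.1 hy
      obtain ⟨n, e⟩ := hx m
      exact r.mem_S0.2 ⟨n, e.symm⟩)
    (fun g hg => ⟨3, fun x hx => by
      obtain ⟨m, rfl⟩ := r.mem_S0.1 hx
      rw [show 2 ^ 3 = 2 * 4 from rfl, pow_mul, pow_two]
      exact B2.pow4 h (NT.mul hg hg) ((r.dich hg).elim (fun a => a.1.mul a.1) fun a => a.2.mul a.1) m⟩)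
    hR.pg (fun x hx => (hR.nt x hx).1) hS.pgroup fun x hx => B2.mem (R := N) r.nt_φ (k.sw r).1 ((mS x).1 hx)
  exact ⟨_, Q, k.cj fun m => ho _ (r.ov_S0.s0 m), ⟨hQ.pgroup, fun m => l1 (hR.s0 m)⟩, l1,
    l2 c ((mS c).2 ⟨1, true, by rw [r.mod5.one, one_mul, bp_true]⟩), fun x hx => hQ.le hx⟩

end Hy

end CL.HS8
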