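import Cfsg.Agent.INV.HS8.Jn
import Cfsg.Agent.INV.HS8.Cls
import Cfsg.Agent.INV.HS8.Def2

/-!
Case II: definitions.
-/

set_option autoImplicit false

open Subgroup CL.TwoS CL.MSS

namespace CL.HS8

variable {G : Type*} [Group G] {d : Dat G}

/-- The normalised swapping element. -/
structure C2 (d : Dat G) (c : G) (p : Bool) : Prop where
  ct : Commute c d.t
  cv : c * d.v * c⁻¹ = d.w
  cw : c * d.w * c⁻¹ = d.v
  ca : c * d.a * c⁻¹ = d.b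
  cb : c * d.b * c⁻¹ = d.a
  cc : c * c = bp d.t p

/-- Membership of `S`. -/
def InS (d : Dat G) (c x : G) : Prop := ∃ m i, x = d.φ5 m * bp c i

/-- `g S g⁻¹ ≤ T`. -/
def Ext (d : Dat G) (c : G) (T : Subgroup G) (g : G) : Prop := (∀ m, g * d.φ5 m * g⁻¹ ∈ T) ∧ g * c * g⁻¹ ∈ T

theorem C2.swap {c : G} {p : Bool} (k : C2 d c p) : C2 d.swap c p := ⟨k.ct, k.cw, k.cv, k.cb, k.ca, k.cc⟩

theorem C2.twist {c : G} {p : Bool} (k : C2 d c p) : C2 d.twist c p := by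
  have e : ∀ {x y : G}, c * x * c⁻¹ = y → c * (d.t * x) * c⁻¹ = d.t * y := fun e => by
    rw [Jn.cjm, e, cj_of_comm k.ct]
  exact ⟨k.ct, k.cv, k.cw, e k.ca, e k.cb, k.cc⟩

/-- `φ4` of `cjd c d` and of `d.swap` agree, also `φ5`, `w`, `a`, `b`, `v`, `t`: local data for `E` give local data for `F`. -/
theorem C2.cjd_eq {c : G} {p : Bool} (k : C2 d c p) :
    cjd c d = ⟨d.t, d.b, d.a, d.v, d.w, c * d.ρ * c⁻¹, c * d.ρ' * c⁻¹⟩ := by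
  rw [cjd, cj_of_comm k.ct, k.ca, k.cb, k.cv, k.cw]

theorem C2.sw {c : G} {p : Bool} (r : Rl d) (k : C2 d c p) : Sw d c := by
  have a : ∀ m, c * d.φ5 m * c⁻¹ = d.swap.φ5 m := fun m => by rw [← cjd_φ5, k.cjd_eq]; rfl
  exact ⟨fun m => ⟨_, (a m).trans (r.φ5_swap m)⟩, fun e => ⟨e, by rw [← d.φ5_e, a, d.swap.φ5_e]⟩⟩

theorem C2.cj {c o : G} {p : Bool} (k : C2 d c p) (ho : ∀ m, Commute o (d.φ5 m)) : C2 d (o * c * o⁻¹) p := by
  have e : ∀ m n, c * d.φ5 m * c⁻¹ = d.φ5 n → o * c * o⁻¹ * d.φ5 m * (o * c * o⁻¹)⁻¹ = d.φ5 n := fun m n e => by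
    rw [← cj_of_comm (ho m), cjd_rel e, cj_of_comm (ho n)]
  refine ⟨?_, ?_, ?_, ?_, ?_, ?_⟩
  · rw [← cj_of_comm (d.φt ▸ ho _ : Commute o d.t)]; exact comm_cj.2 k.ct
  · simpa only [d.φv, d.φw] using e (.of 2) (.of 16) (by rw [d.φv, d.φw, k.cv])
  · simpa only [d.φv, d.φw] using e (.of 16) (.of 2) (by rw [d.φv, d.φw, k.cw])
  · simpa only [d.φa, d.φb] using e (.of 4) (.of 8) (by rw [d.φa, d.φb, k.ca])
  · simpa only [d.φa, d.φb] using e (.of 8) (.of 4) (by rw [d.φa, d.φb, k.cb])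
  · rw [← Jn.cjm, k.cc, cj_of_comm (comm_bp (d.φt ▸ ho _ : Commute o d.t) p)]

/-- The action of `c` on `S0`. -/
theorem C2.act {c : G} {p : Bool} (r : Rl d) (k : C2 d c p) (m : M5) : c * d.φ5 m * c⁻¹ = d.φ5 (sw5 m) := by
  rw [← cjd_φ5, k.cjd_eq]; exact r.φ5_swap m

end CL.HS8
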