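import Cfsg.Agent.INV.HS8.B2d
import Cfsg.Agent.INV.GH4.Basic

/-!
Case II: the normalised swapping element.
-/

set_option autoImplicit false
set_option maxHeartbeats 400000
set_option linter.unusedSectionVars false

open Subgroup CL.TwoS CL.MSS

namespace CL.HS8

open Cls

variable {G : Type*} [Group G] [Finite G] {d : Dat G}

namespace B2x

theorem pow_E {g : G} (hg : Into d.φ4 d.φ4 g) (n : ℕ) : Into d.φ4 d.φ4 (g ^ n) := by
  induction n with
  | zero => exact pow_zero g ▸ Act.one.into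
  | succ n ih => exact pow_succ g n ▸ ih.mul hg

theorem odd_E (r : Rl d) {g : G} (hg : NT d g) (o : Odd (orderOf g)) : Into d.φ4 d.φ4 g := by
  refine (r.dich hg).elim And.left fun k => ?_
  obtain ⟨n, hn⟩ := o
  have := r.into_inv (pow_E (k.2.mul k.1) n)
  rwa [← pow_two, ← pow_mul, inv_eq_of_mul_eq_one_right (by rw [← pow_succ, ← hn, pow_orderOf_eq_one])] at this

theorem sw_inv (r : Rl d) {c : G} (s : Sw d c) : Sw d c⁻¹ :=
  ⟨r.nt_inv s.1, ((r.dich (r.nt_inv s.1)).resolve_left fun k => r.not_EF (inv_inv c ▸ r.into_inv k.1) s.2).1⟩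

/-- The Sylow subgroup `S = S0 ⟨c⟩` of `C(t)`. -/
structure Nm (d : Dat G) (S : Subgroup G) (c : G) (n : ℕ) : Prop where
  syl : SylIn 2 S (centralizer {d.t})
  s0 : ∀ m, d.φ5 m ∈ S
  cS : c ∈ S
  sw : Sw d c
  hn : n = 8 ∨ n = 9
  au : Au d c 1 16 n 2
  dec : ∀ x ∈ S, (∃ m, x = d.φ5 m) ∨ ∃ m, x = d.φ5 m * c
  cc : ∃ m ∈ [1, M5.of 1, .of 12, .of 13], c * c = d.φ5 m

theorem norm (h : Hy d) (n : ¬ C1 d) : ∃ S c n, Nm d S c n := by
  have r := h.toRl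
  obtain ⟨S, L, hS, s0, Ln, mem, dec⟩ := h.ex
  obtain ⟨c, cS, sw⟩ : ∃ c ∈ S, Sw d c := by
    by_contra! k
    refine n fun g ht hg => ?_
    have e : ∀ x ∈ S, ∃ m, x = d.φ5 m := fun x hx => (dec x hx).resolve_right fun j => k x hx j.2
    have gN : g ∈ normalizer (S : Set G) := mem_normalizer_fintype fun x hx => by
      obtain ⟨m, rfl⟩ := e x hx
      obtain ⟨m', e'⟩ := hg.1 m
      exact e' ▸ s0 m'
    obtain ⟨i, j, l, e1, e2, e3⟩ := two_part g
    obtain ⟨m, hm⟩ := e _ (hS.le_of_normalizes (R := zpowers (g ^ i)) (by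
      rintro ⟨_, z, rfl⟩
      exact ⟨l, Subtype.ext (show ((g ^ i) ^ z) ^ 2 ^ l = 1 by
        rw [← zpow_natCast, zpow_comm, zpow_natCast, e2, one_zpow])⟩)
      (zpowers_le.2 (pow_mem (mem_centralizer_singleton_iff.2 ht) i)) (zpowers_le.2 (pow_mem gN i)) (mem_zpowers _))
    refine r.not_EF (e1 ▸ (hm ▸ r.into_φ m).mul (odd_E r (fun m => ?_) e3)) hg.2
    exact e _ ((mem_normalizer_iff.1 (pow_mem gN j) _).1 (s0 m))
  have ct : Commute c d.t := mem_centralizer_singleton_iff.1 (hS.le cS)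
  obtain ⟨mv, mw, pr, ma, a1, a2, a3, mt, -, A⟩ := r.exists_A sw.1
  obtain rfl : mt = .of 1 := r.inj (by rw [← a5t mt mv ma mw, ← A, d.φt, cj_of_comm ct])
  have D : ∀ m, inD m = true → inD (app5 (.of 1) mv ma mw m) = true := fun m hm =>
    (mem _).1 (A m ▸ Ln c ct _ ((mem m).2 hm))
  have v0 : mv.e.v = false := by
    obtain ⟨f, hf⟩ := sw.2 (.of 2)
    rw [d.ψv, ← d.φv, A, a5v, r.φ4_swap] at hf
    rw [r.inj hf]
    clear hf
    revert f
    decide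
  obtain ⟨i, i1, i2⟩ := (by decide +kernel : ∀ mv mw : M5, prb mv mw = true → mv.e.v = false → inD mv = true →
    inD mw = true → ∃ i, i * mv * i⁻¹ = .of 16 ∧ i * mw * i⁻¹ = .of 2) mv mw pr v0
    (a5v (.of 1) mv ma mw ▸ D _ rfl) (a5w (.of 1) mv ma mw ▸ D _ rfl)
  obtain ⟨f, hf⟩ := r.swap.act_of_into ((sw.2.mul r.act_ρ.into).mul (r.sw_FE (sw_inv r sw)))
  have z := r.nt_z sw.1
  have b : c * d.b * c⁻¹ = d.φ5 (ma * .of 12) := by rw [← d.φb, A, a5b]
  obtain ⟨k, hk, rfl⟩ := (by decide +kernel : ∀ f ∈ S3, ∀ ma : M5, ma.cen = true → ma ≠ .of 12 → ma * .of 12 ≠ .of 1 →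
    f.app (.of 12) ≠ .of 12 → f.app (us (ma * .of 12)) = us (ma * .of 12) → ∃ k ∈ [8, 9], ma = .of k)
    f (h.swap.st hf ((ct.mul_left r.ρt).mul_left ct.inv_left)) ma a1 a3
    (fun e => absurd (r.inj (d.φb.trans (((MulAut.conj c).injective (b.trans
      (e ▸ d.φt.trans (cj_of_comm ct).symm))).trans d.φt.symm))) (by decide))
    (fun e => by
      have := r.swap.act_comm hf e
      rw [Rl.ψz, show d.swap.a * d.swap.b = d.a * d.b from r.c4.ab.symm, ← z, comm_cj, ← Rl.ψz] at this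
      exact absurd (r.act_fix r.act_ρ this) (by decide))
    (r.swap.act_fix hf (by
      rw [← r.φ5_F _ (by revert a1; generalize ma = m; revert m; decide), ← b, comm_cj]
      exact r.ρb))
  replace hk : k = 8 ∨ k = 9 := by simpa using hk
  have B : ∀ m, d.φ5 i * c * d.φ5 m * (d.φ5 i * c)⁻¹ = d.φ5 (i * app5 (.of 1) mv (.of k) mw m * i⁻¹) := fun m => by
    rw [r.mod5.mul, r.mod5.mul, r.φ5_inv, ← A]; group
  have cen : ∀ i m : M5, m.cen = true → i * m * i⁻¹ = m := by decide +kernel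
  have au : Au d (d.φ5 i * c) 1 16 k 2 := r.au_of (by rw [← d.φt, B, a5t, cen _ _ rfl]) (by rw [← d.φv, B, a5v, i1])
    (by rw [← d.φa, B, a5a, cen _ _ a1]) (by rw [← d.φb, B, a5b, cen _ _ (by rcases hk with rfl | rfl <;> rfl)])
    (by rw [← d.φw, B, a5w, i2])
  have m := mul_mem (s0 i) cS
  have sw' : Sw d (d.φ5 i * c) := ((dec _ m).resolve_left fun ⟨j, e⟩ => r.not_EF (by
    rw [eq_inv_mul_of_mul_eq e]; exact (r.into_inv (r.into_φ i)).mul (r.into_φ j)) sw.2).2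
  generalize d.φ5 i * c = c at au m sw'
  refine ⟨S, c, k, hS, s0, m, sw', hk, au, fun x hx => (dec x hx).imp_right fun s => ?_, ?_⟩
  · obtain ⟨j, e⟩ := (dec _ (mul_mem hx (inv_mem m))).resolve_right fun j =>
      r.not_EF ((r.sw_FE s.2).mul (sw_inv r sw').2) j.2.2
    exact ⟨j, eq_mul_of_mul_inv_eq e⟩
  · obtain ⟨j, e⟩ := (dec _ (mul_mem m m)).resolve_right fun j => r.not_EF ((r.sw_FE sw').mul sw'.2) j.2.2
    have k1 : ∀ n, app5 (.of 1) (.of 16) (.of k) (.of 2) (app5 (.of 1) (.of 16) (.of k) (.of 2) n) = j * n * j⁻¹ :=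
      fun n => r.inj (by rw [← au, ← au, r.mod5.mul, r.mod5.mul, r.φ5_inv, ← e]; group)
    have k2 : app5 (.of 1) (.of 16) (.of k) (.of 2) j = j := r.inj (by rw [← au, ← e]; group)
    refine ⟨j, ?_, e⟩
    have k3 := And.intro (k1 (.of 2)) (k1 (.of 16))
    clear e k1
    revert j
    rcases hk with rfl | rfl <;> decide +kernel

theorem act_cj {c y : G} {a b e f a' b' e' f' : ℕ} (A : Au d c a b e f) (B : Au d y a' b' e' f') {g : L4}
    (k : ∀ x, ∃ m, app5 (.of a) (.of b) (.of e) (.of f) m = ⟨x, false⟩ ∧ app5 (.of a) (.of b) (.of e) (.of f)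
      (app5 (.of a') (.of b') (.of e') (.of f') m) = ⟨g.app x, false⟩) : Act d.φ4 (c * y * c⁻¹) g := fun x => by
  obtain ⟨m, h1, h2⟩ := k x
  rw [← d.φ5_e, ← d.φ5_e, ← h1, ← h2, ← A, ← A, ← B]; group

theorem not_ae (r : Rl d) {A : List L4} (h : AE d A) {g : G} {f : L4} (a : Act d.φ4 g f)
    (n : ∀ f' ∈ A, ∀ s ∈ S3, f ≠ f' * s) : False := by
  obtain ⟨f', h1, s, h2, e⟩ := h.le g a.into
  exact n f' h1 s h2 (Act.unique r.mod4.inj a e)

theorem two (h : Hy d) (n : ¬ C1 d) {A A' : List L4} (h1 : AE d A) (h2 : AE d.swap A')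
    (k : ∀ l ∈ [1, L4.of 1 2 5 9], ∃ f ∈ A, ∀ f' ∈ A', ∀ s ∈ S3, l * f * l ≠ f' * s) : False := by
  have r := h.toRl
  obtain ⟨S, c, n, N⟩ := norm h n
  obtain ⟨l, hl, l1, l2⟩ : ∃ l ∈ [1, L4.of 1 2 5 9], (∀ e, l.app (l.app e) = e) ∧
      ∀ e, app5 (.of 1) (.of 16) (.of n) (.of 2) ⟨e, false⟩ = sw5 ⟨l.app e, false⟩ := by
    rcases N.hn with rfl | rfl <;> decide +kernel
  obtain ⟨f, hf, k⟩ := k l hl
  obtain ⟨x, hx⟩ := h1.ge f hf
  have e : ∀ e, c * d.φ4 e * c⁻¹ = d.swap.φ4 (l.app e) := fun e => by rw [← d.φ5_e, N.au, l2, r.φ4_swap]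
  refine not_ae r.swap h2 (g := c * x * c⁻¹) (fun y => ?_) k
  rw [L4.mul_app, L4.mul_app, ← e, ← hx, ← l1 y, ← e, l1]; group

end B2x

open B2x

theorem Hy.case2x (h : Hy d) (n : ¬ C1 d) (k : K4 d ∨ ∃ α β, K8 d α β) : ∃ c p, C2 d c p := by
  have r := h.toRl
  obtain ⟨S, c, n, N⟩ := norm h n
  have au := N.au
  rcases N.hn with rfl | rfl
  swap
  · rcases k with ⟨k, -, R, y, -, -, a⟩ | ⟨α, β, k, -, R, y, -, -, -, -, a, -⟩
    · exact (not_ae r k (act_cj au a (g := .of 13 2 8 4) (by decide +kernel)) (by decide +kernel)).elim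
    · exact (not_ae r k (act_cj au a (g := .of 4 (cond β 7 2) 1 13) (by cases β <;> decide +kernel))
        (by cases α <;> cases β <;> decide +kernel)).elim
  have ct : Commute c d.t := mem_centralizer_singleton_iff.1 (N.syl.le N.cS)
  have cv : c * d.v * c⁻¹ = d.w := by rw [← d.φv, au, a5v, d.φw]
  have cw : c * d.w * c⁻¹ = d.v := by rw [← d.φw, au, a5w, d.φv]
  have ca : c * d.a * c⁻¹ = d.b := by rw [← d.φa, au, a5a, d.φb]
  have cb : c * d.b * c⁻¹ = d.a := by rw [← d.φb, au, a5b, ← d.φa]; exact congrArg _ (by decide)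
  have e : ∀ {x y : G}, Commute d.a x → c * x * c⁻¹ = y → c * d.a * x * (c * d.a)⁻¹ = y := fun a e => by
    rw [← e, mul_assoc c, a.eq]; group
  have sq : ∀ m, c * c = d.φ5 m → c * d.a * (c * d.a) = d.φ5 (.of 8 * m * .of 4) := fun m e => by
    rw [r.mod5.mul, r.mod5.mul, d.φa, d.φb, ← e, ← ca]; group
  have k2 : ∀ p, c * d.a * (c * d.a) = bp d.t p → C2 d (c * d.a) p := fun p => C2.mk (ct.mul_left r.c4.ta.symm)
    (e r.c4.va.symm cv) (e r.aw cw) (e (.refl _) ca) (e r.c4.ab cb)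
  obtain ⟨m, hm, cc⟩ := N.cc
  simp only [List.mem_cons, List.not_mem_nil, or_false] at hm
  rcases hm with rfl | rfl | rfl | rfl
  · exact ⟨c, false, ct, cv, cw, ca, cb, cc.trans r.mod5.one⟩
  · exact ⟨c, true, ct, cv, cw, ca, cb, cc.trans d.φt⟩
  · exact ⟨_, false, k2 _ ((sq _ cc).trans ((congrArg _ (by decide)).trans r.mod5.one))⟩
  · exact ⟨_, true, k2 _ ((sq _ cc).trans ((congrArg _ (by decide)).trans d.φt))⟩

theorem kII1x (h : Hy d) (n : ¬ C1 d) (k : K1 d) : R4 G := by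
  have r := h.toRl
  obtain ⟨S, c, n, N⟩ := norm h n
  have au := N.au
  have md := r.mod5
  obtain ⟨θ, hθ⟩ : ∃ θ, θ = app5 (.of 1) (.of 16) (.of n) (.of 2) := ⟨_, rfl⟩
  have A : ∀ m, c * d.φ5 m * c⁻¹ = d.φ5 (θ m) := hθ ▸ au
  obtain ⟨t1, t2, t3, t4, t5⟩ : θ (.of 4) ≠ .of 4 ∧
      (∀ m, let x := .of 4 * (m * θ (.of 4)⁻¹ * m⁻¹); x.cen = true ∧ θ x = x) ∧
      (∀ m, let x := m * θ (.of 2) * m⁻¹ * (M5.of 2)⁻¹; x * .of 2 ≠ .of 2 * x) ∧
      (∀ m, m * m = 1 → (∀ j ∈ [M5.of 2, .of 16], m * θ m⁻¹ * j = j * (m * θ m⁻¹)) → m.cen = true) ∧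
      ∀ m ∈ [1, M5.of 1, .of 12, .of 13], let x := θ (.of 2) * m * .of 2; x * x ≠ 1 ∧ x * x * (x * x) = 1 := by
    rcases N.hn with rfl | rfl <;> subst hθ <;> decide +kernel
  have cen : ∀ m j : M5, m.cen = true → d.φ5 m * d.φ5 j = d.φ5 j * d.φ5 m := fun m j hm =>
    md.comm.2 (by revert m j; decide +kernel)
  have fixE : ∀ g, Into d.φ4 d.φ4 g → Commute g d.t := fun g hg => by
    obtain ⟨f, hf, s, hs, a⟩ := k.1.le g hg
    exact d.ψt ▸ r.act_comm a (by clear a; revert f s; decide +kernel)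
  have hS : SylIn 2 S ⊤ := N.syl.of_normalizer_le le_top fun g hg => by
    have gN := (mem_inf.1 hg).2
    have pull : ∀ x ∈ S, ∃ y ∈ S, x = g * y * g⁻¹ := fun x hx =>
      ⟨_, (mem_normalizer_iff''.1 gN x).1 hx, by group⟩
    have P : ∀ x ∈ S, ∀ x' ∈ S, Commute (g * d.a * g⁻¹ * x * (g * d.a * g⁻¹)⁻¹ * x⁻¹) x' := fun x hx x' hx' => by
      obtain ⟨x, hy, rfl⟩ := pull x hx
      obtain ⟨x', hy', rfl⟩ := pull x' hx'
      rw [Jn.cji, Jn.cji, conj_mul, conj_mul, conj_mul, comm_cj, ← d.φa]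
      rcases N.dec x hy with ⟨m, rfl⟩ | ⟨m, rfl⟩
      · rw [cen _ m rfl]; simp
      · rw [show d.φ5 (.of 4) * (d.φ5 m * c) * (d.φ5 (.of 4))⁻¹ * (d.φ5 m * c)⁻¹ =
          d.φ5 (.of 4 * (m * θ (.of 4)⁻¹ * m⁻¹)) by rw [md.mul, md.mul, md.mul, ← A, r.φ5_inv, r.φ5_inv]; group]
        rcases N.dec x' hy' with ⟨j, rfl⟩ | ⟨j, rfl⟩
        · exact cen _ j (t2 m).1
        · exact Commute.mul_right (cen _ j (t2 m).1) (comm_of_cj ((A _).trans (congrArg _ (t2 m).2))).symm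
    have aS := (mem_normalizer_iff.1 gN _).1 (d.φa ▸ N.s0 (.of 4))
    obtain ⟨m, hm⟩ := (N.dec _ aS).resolve_right fun ⟨m, e⟩ => t3 m (md.comm.1 (by
      have := P _ (N.s0 (.of 2)) _ (N.s0 (.of 2))
      rwa [e, show d.φ5 m * c * d.φ5 (.of 2) * (d.φ5 m * c)⁻¹ * (d.φ5 (.of 2))⁻¹ =
        d.φ5 (m * θ (.of 2) * m⁻¹ * (M5.of 2)⁻¹) by rw [md.mul, md.mul, md.mul, ← A, r.φ5_inv, r.φ5_inv]; group] at this))
    have mc := t4 m (md.sq.1 (by rw [← hm, conj_mul, r.c4.aa, mul_one, mul_inv_cancel])) fun j _ => md.comm.1 (by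
      have := P _ N.cS _ (N.s0 j)
      rwa [hm, show d.φ5 m * c * (d.φ5 m)⁻¹ * c⁻¹ = d.φ5 (m * θ m⁻¹) by rw [md.mul, ← A, r.φ5_inv]; group] at this)
    have nc : ¬ Commute (d.φ5 m) c := fun e => t1 (r.inj (by
      have k : Commute (g * d.a * g⁻¹) (g * c * g⁻¹) := by
        rw [hm]
        rcases N.dec _ ((mem_normalizer_iff.1 gN _).1 N.cS) with ⟨j, e'⟩ | ⟨j, e'⟩ <;> rw [e']
        exacts [cen _ j mc, Commute.mul_right (cen _ j mc) e]
      rw [← A, d.φa, cj_of_comm (comm_cj.1 k).symm]))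
    have nt : NT d g := fun j => (N.dec _ ((mem_normalizer_iff.1 gN _).1 (N.s0 j))).resolve_right fun ⟨i, e⟩ => nc (by
      have k : Commute (g * d.a * g⁻¹) (g * d.φ5 j * g⁻¹) := comm_cj.2 (d.φa ▸ cen _ j rfl)
      rw [hm, e] at k
      simpa using (Commute.inv_right (cen _ i mc)).mul_right k)
    refine mem_centralizer_singleton_iff.2 ((r.dich nt).elim (fun k => fixE g k.1) fun k => ?_)
    simpa using ((Commute.inv_left (mem_centralizer_singleton_iff.1 (N.syl.le N.cS))).mul_left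
      (fixE _ ((r.sw_FE N.sw).mul k.1))).eq
  refine SR16.R.of_sylow hS.toSylowTop fun A B le sq => ?_
  have ct : ∀ x ∈ S, Commute x d.t := fun x hx => mem_centralizer_singleton_iff.1 (N.syl.le hx)
  have c64 := (card_top (G := S)).trans_le (h.card64 (IsConj.refl _) hS.pgroup ct)
  have lA := (card_le_of_le (le_top (a := A))).trans c64
  by_cases b : B = ⊥
  · subst b
    rw [card_bot, ← card_map_of_injective (K := A) S.subtype_injective]
    exact h.rank4 (IsConj.refl _) (by rintro _ ⟨x, hx, rfl⟩; exact congrArg Subtype.val (mem_bot.1 (sq x hx)))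
      fun x hx => ct x (map_subtype_le A hx)
  have b2 : 1 < Nat.card B := (one_lt_card_iff_ne_bot B).2 b
  rcases (le_top (a := A)).eq_or_lt with rfl | l
  · obtain ⟨m, hm, cc⟩ := N.cc
    have e : c * d.φ5 (.of 2) * (c * d.φ5 (.of 2)) = d.φ5 (θ (.of 2) * m * .of 2) := by
      rw [md.mul, md.mul, ← A, ← cc]; group
    have o : orderOf (⟨_, mul_mem N.cS (N.s0 (.of 2))⟩ * ⟨_, mul_mem N.cS (N.s0 (.of 2))⟩ : S) = 2 ^ 2 := by
      rw [← Subgroup.orderOf_coe, coe_mul, e]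
      refine orderOf_eq_prime_pow (fun k => (t5 m hm).1 (md.sq.1 (by simpa [pow_two] using k))) ?_
      rw [show 2 ^ (1 + 1) = 2 * 2 from rfl, pow_mul, pow_two, pow_two, ← md.mul, md.sq]
      exact (t5 m hm).2
    have := Nat.le_of_dvd Nat.card_pos (o ▸ orderOf_dvd_natCard B (sq _ trivial))
    omega
  · have := (GH4.two_mul_le_of_lt l).trans c64
    omega

theorem kII2x (h : Hy d) (n : ¬ C1 d) : ¬ K2 d ∧ ¬ K8 d true false ∧ ¬ K8 d false true :=
  ⟨fun k => two h n k.1 k.2.1 (by decide +kernel), fun k => two h n k.1 k.2.1 (by decide +kernel),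
    fun k => two h n k.1 k.2.1 (by decide +kernel)⟩

end CL.HS8
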